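import Cfsg.Agent.H68.MeetBase
import Cfsg.Agent.H70.SzOut
import Cfsg.Agent.KFacts.TwF4.Full
import Cfsg.Agent.S1068
import Cfsg.Agent.S1090
import Cfsg.Agent.TitsK.Model

/-!
# helper232: Suzuki groups, `²F₄(q)`, Tits group, characteristic 2: `MeetIn 2`  (S5760)
-/

set_option autoImplicit false
set_option linter.unusedSectionVars false
set_option maxHeartbeats 400000

namespace Cfsg.Agent.H232.MeetTwoTw

open Cfsg Cfsg.Lie
open Cfsg.Agent.H68.MeetB


/-! ### Suzuki groups -/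

section sz

open Cfsg.Agent.LieRecognition.SzMatrix Cfsg.Agent.ThreePrime Cfsg.Agent.ThreePrime.SzRel
open Cfsg.Agent.H70.SzOut

theorem meetIn_Sz {F : Type} [Field F] [Fintype F] {m : ℕ} (hm : 1 ≤ m)
    (hF : Fintype.card F = 2 ^ (2 * m + 1)) : MeetIn 2 ↥(Cfsg.Lie.Sz F (2 ^ (m + 1))) := by
  obtain ⟨S, hS⟩ := exists_sylow hm hF
  have hcard := (Cfsg.Agent.S1163.result hm hF).1
  have hfin : Finite ↥(Cfsg.Lie.Sz F (2 ^ (m + 1))) := Nat.finite_of_card_ne_zero (by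
    rw [hcard]
    have h8 : 1 < 2 ^ (2 * m + 1) := Nat.one_lt_two_pow (by omega)
    have : 0 < 2 ^ (2 * m + 1) - 1 := by omega
    positivity)
  set R := ofGood (good hF) with hR
  have hUp : IsPGroup 2 ↥R.T := by
    have h1 := S.isPGroup'
    rw [hS] at h1
    exact h1
  have hUi : ¬ 2 ∣ R.T.index := by
    have h1 := S.not_dvd_index
    rw [hS] at h1
    exact h1
  refine MeetIn.of_one R.T hUp hUi ⟨R.w, fun y hy h => ?_⟩
  by_contra hy1
  exact R.w_not_mem_normalizer (R.ti hy hy1 h)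

/-- **Suzuki groups.** -/
theorem meetIn_Suzuki {G : Type*} [Group G] (h : Cfsg.Lie.IsoSuzuki G) : MeetIn 2 G := by
  obtain ⟨F, _, _, m, hm, hF, ⟨e⟩⟩ := h
  exact MeetIn.congr e.symm (meetIn_Sz hm hF)

end sz

/-! ### `²F₄(q)` -/

section twf4

open Cfsg.Agent.ChevalleyStructure.TwF4.Rel Cfsg.Agent.ChevalleyStructure.TwF4.Fix
open Cfsg.Agent.ChevalleyStructure.TwF4.Groups Cfsg.Agent.ChevalleyStructure.TwF4.RankOne
open Cfsg.Agent.ChevalleyStructure.TwF4.Twisted Cfsg.Agent.ChevalleyStructure.TwF4.TwistedFix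
open Cfsg.Agent.ChevalleyStructure.TwF4.BN
open Cfsg.Agent.ChevalleyStructure.F4NTab
open Cfsg.Agent.Octagon.Pkg Cfsg.Agent.Octagon.KRel Cfsg.Agent.Octagon.KSys Cfsg.Agent.Octagon.KPar
open Cfsg.Agent.KFacts.TwF4.Inst
open Cfsg.Agent.Schreier.TwFFour (U0 B0 node1 node2 xa_U xb_U)

/-- `²F₄(q)`, `q = 2^(2m+1)` (also for `q = 2`) -/
theorem meetIn_twistedF4 {K : Type*} [Field K] [Fintype K] {m : ℕ} (hK : Fintype.card K = 2 ^ (2 * m + 1)) :
    MeetIn 2 ↥(twistedF4 K (2 ^ m)) := by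
  have : CharP K 2 := Cfsg.Agent.ChevalleyStructure.TwF4.Twisted.charP_two hK
  obtain ⟨φ, hφ⟩ := Cfsg.Agent.ChevalleyStructure.TwF4.TwistedFix.exists_rln hK
  have hcard := Cfsg.Agent.S1068.result hK
  have hcU := Cfsg.Agent.S1090.result hK
  have e1 : (chevF4.posUnipotent K ⊓ twistedF4 K (2 ^ m)).subgroupOf (twistedF4 K (2 ^ m)) = U0 K (2 ^ m) := by
    rw [Subgroup.inf_subgroupOf_right, posUnipotent_eq]
    rfl
  have hcU0 : Nat.card ↥(U0 K (2 ^ m)) = (2 ^ (2 * m + 1)) ^ 12 := by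
    rw [← hcU, ← e1, Nat.card_congr (Subgroup.subgroupOfEquivOfLe inf_le_right).toEquiv]
  obtain ⟨q, hq⟩ : ∃ q, q = 2 ^ (2 * m) := ⟨_, rfl⟩
  have hq2 : 2 ^ (2 * m + 1) = 2 * q := by rw [pow_succ, hq, mul_comm]
  have hq1 : 1 ≤ q := hq ▸ Nat.one_le_two_pow
  have hUi : ¬ 2 ∣ (U0 K (2 ^ m)).index := by
    have h1 := Subgroup.card_mul_index (U0 K (2 ^ m))
    rw [hcard, hcU0, hq2] at h1
    have h2 : (2 * q) ^ 12 * (U0 K (2 ^ m)).index =
        (2 * q) ^ 12 * ((2 * q - 1) * ((2 * q) ^ 3 + 1) * ((2 * q) ^ 4 - 1) * ((2 * q) ^ 6 + 1)) := by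
      rw [h1]; ring
    have h3 := Nat.eq_of_mul_eq_mul_left (by positivity) h2
    rw [h3, ← even_iff_two_dvd, Nat.not_even_iff_odd]
    have h4 : 1 ≤ (2 * q) ^ 4 := Nat.one_le_pow _ _ (by omega)
    refine Odd.mul (Odd.mul (Odd.mul ?_ ?_) ?_) ?_
    · exact ⟨q - 1, by omega⟩
    · exact ⟨4 * q ^ 3, by ring⟩
    · refine Nat.Even.sub_odd h4 ?_ odd_one
      exact ⟨8 * q ^ 4, by ring⟩
    · exact ⟨32 * q ^ 6, by ring⟩
  have hUp : IsPGroup 2 ↥(U0 K (2 ^ m)) := IsPGroup.of_card (n := (2 * m + 1) * 12) (by rw [hcU0, ← pow_mul])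
  have hfin : Finite ↥(twistedF4 K (2 ^ m)) := inferInstance
  set w : ↥(twistedF4 K (2 ^ m)) :=
    (m1 K (2 ^ m) * m2 hφ) * ((m1 K (2 ^ m) * m2 hφ) * ((m1 K (2 ^ m) * m2 hφ) * (m1 K (2 ^ m) * m2 hφ))) with hw
  have hwA : Act (w : GL chevF4.Idx K) (fun r => w1 (w2 (w1 (w2 (w1 (w2 (w1 (w2 r)))))))) := Act_rot4
  refine MeetIn.of_one (U0 K (2 ^ m)) hUp hUi ⟨w, fun u hu h => ?_⟩
  have h4 : (w : GL chevF4.Idx K) * (u : GL chevF4.Idx K) * (w : GL chevF4.Idx K)⁻¹ ∈ GA K negB := by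
    refine Act_conj hwA ?_ (u : GL chevF4.Idx K) hu
    intro r hr hA
    have h5 := List.all_eq_true.1 p4_neg r (List.mem_range.2 hr)
    have h6 : 24 ≤ r := of_decide_eq_true hA
    simp only [Bool.or_eq_true, decide_eq_true_eq] at h5
    exact decide_eq_true (h5.resolve_left (by omega))
  have h5 : (w : GL chevF4.Idx K) * (u : GL chevF4.Idx K) * (w : GL chevF4.Idx K)⁻¹ ∈ chevF4.borelSubgroup K :=
    U_le_borel h
  have h6 := borel_inf_negB _ h5 h4
  apply Subtype.ext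
  have e1 : (u : GL chevF4.Idx K) = (w : GL chevF4.Idx K)⁻¹ *
      ((w : GL chevF4.Idx K) * (u : GL chevF4.Idx K) * (w : GL chevF4.Idx K)⁻¹) * (w : GL chevF4.Idx K) := by
    group
  rw [e1, h6]
  group
  rfl

/-- **Large Ree groups.** -/
theorem meetIn_2F4 {G : Type*} [Group G] (h : Cfsg.Lie.Iso2F4 G) : MeetIn 2 G := by
  obtain ⟨K, _, _, m, hm, hK, ⟨e⟩⟩ := h
  exact MeetIn.congr e.symm (meetIn_twistedF4 hK)

end twf4

/-! ### the Tits group -/

section tits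

open Cfsg.Agent.TitsK Cfsg.Agent.FourTwo.Base Cfsg.Agent.FourTwo.BN
open scoped commutatorElement

/-- the subgroup `P ⊓ T` of `T` -/
theorem meetIn_sub {G : Type*} [Group G] {p : ℕ} [Fact p.Prime] {T P : Subgroup G} [Finite ↥T]
    (hP : IsPGroup p ↥(P.subgroupOf T)) (hi : ¬ p ∣ (P.subgroupOf T).index) {w : G} (hw : w ∈ T)
    (h : ∀ y ∈ P, w * y * w⁻¹ ∈ P → y = 1) : MeetIn p ↥T := by
  refine MeetIn.of_one _ hP hi ⟨⟨w, hw⟩, fun y hy hxy => ?_⟩
  exact Subtype.ext (h y hy hxy)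

theorem conj_closure {G : Type*} [Group G] (w : G) (S : Set G) (V : Subgroup G) (h : ∀ s ∈ S, w * s * w⁻¹ ∈ V)
    {u : G} (hu : u ∈ Subgroup.closure S) : w * u * w⁻¹ ∈ V := by
  have h1 : Subgroup.closure S ≤ V.comap (MulAut.conj w).toMonoidHom := by
    rw [Subgroup.closure_le]
    intro s hs
    exact h s hs
  exact h1 hu

/-- conjugation by the longest element exchanges `U` and `V` -/
theorem w0_conj_U {u : LL} (hu : u ∈ U) : w0 * u * w0⁻¹ ∈ V := by
  rw [U_eq_closure] at hu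
  refine conj_closure w0 _ V ?_ hu
  rintro g ⟨r, h1, h2, rfl⟩
  rw [w0_conj h2]
  exact x_mem_V (by omega)

theorem w0_eq : w0 = (na * nb * na * nb) * (na * nb * na * nb) := by
  have h : (na * nb * na * nb) * (na * nb * na * nb) = nw ([0, 3] ++ ([1, 2, 1, 2] ++ ([0, 3] ++ ([1, 2, 1, 2] ++
      ([0, 3] ++ ([1, 2, 1, 2] ++ ([0, 3] ++ [1, 2, 1, 2]))))))) := by
    simp only [nw_append, na, nb, mul_assoc]
  rw [h]
  exact nw_eq_of_act w0L_lt (by decide) (by decide +kernel)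

theorem w0_mem_TT : w0 ∈ TT := by
  have h : na * nb * na * nb ∈ TT := by
    have h1 : ⁅na, nb⁆ ∈ TT := Subgroup.commutator_mem_commutator na_mem_HT nb_mem_HT
    rw [commutatorElement_def, na_inv, nb_inv] at h1
    exact h1
  rw [w0_eq]
  exact mul_mem h h

theorem meetIn_TT : MeetIn 2 ↥TT := by
  have hfin : Finite ↥TT := Nat.finite_of_card_ne_zero (by rw [card_TT]; norm_num)
  have hUp : IsPGroup 2 ↥(UT.subgroupOf TT) := by
    have h1 : IsPGroup 2 ↥UT := IsPGroup.of_card (n := 12) card_UT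
    exact h1.comap_of_injective TT.subtype TT.subtype_injective
  have hidx : ¬ 2 ∣ (UT.subgroupOf TT).index := by
    -- `|UT ⊓ TT|` is divisible by `2 ^ 11`
    have h1 : TT.relIndex UT ∣ TT.relIndex HT := by
      have hn : (TT.subgroupOf HT).Normal := by
        have := Subgroup.normal_of_index_eq_two (H := TT.subgroupOf HT) relIndex_TT
        exact this
      have h2 := Subgroup.relIndex_dvd_index_of_normal (TT.subgroupOf HT) (UT.subgroupOf HT)
      have hle : UT ≤ HT := inf_le_right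
      have h3 : (TT.subgroupOf HT).relIndex (UT.subgroupOf HT) = TT.relIndex UT := by
        rw [Subgroup.relIndex_subgroupOf hle]
      rw [h3] at h2
      exact h2
    rw [relIndex_TT] at h1
    have h2 : Nat.card ↥(TT.subgroupOf UT) * TT.relIndex UT = 2 ^ 12 := by
      rw [← card_UT]
      exact Subgroup.card_mul_index _
    have h3 : Nat.card ↥(TT.subgroupOf UT) = Nat.card ↥(UT.subgroupOf TT) := by
      have a1 : Nat.card ↥(TT.subgroupOf UT) = Nat.card ↥(TT ⊓ UT) := by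
        rw [← Subgroup.inf_subgroupOf_right]
        exact Nat.card_congr (Subgroup.subgroupOfEquivOfLe inf_le_right).toEquiv
      have a2 : Nat.card ↥(UT.subgroupOf TT) = Nat.card ↥(UT ⊓ TT) := by
        rw [← Subgroup.inf_subgroupOf_right]
        exact Nat.card_congr (Subgroup.subgroupOfEquivOfLe inf_le_right).toEquiv
      rw [a1, a2, inf_comm]
    have h4 := Subgroup.card_mul_index (UT.subgroupOf TT)
    rw [card_TT, ← h3] at h4
    have h5 : 2 ^ 11 ∣ Nat.card ↥(TT.subgroupOf UT) := by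
      rcases (Nat.dvd_prime Nat.prime_two).1 h1 with h | h
      · rw [h, mul_one] at h2
        rw [h2]
        exact pow_dvd_pow 2 (by norm_num)
      · rw [h] at h2
        exact ⟨1, by omega⟩
    obtain ⟨c, hc⟩ := h5
    rw [hc, mul_assoc, mul_assoc, mul_assoc] at h4
    have h6 := Nat.eq_of_mul_eq_mul_left (by norm_num) h4
    intro h7
    have h8 : 2 ∣ 3 ^ 3 * (5 ^ 2 * 13) := h6 ▸ (h7.mul_left c)
    norm_num at h8
  refine meetIn_sub hUp hidx w0_mem_TT fun y hy h => ?_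
  have key : ∀ z : LL, z ∈ UT → z ∈ V → z = 1 := by
    intro z hz hz'
    have hz1 : z ∈ U := (Subgroup.mem_inf.1 hz).1
    have h2 : z ∈ U ⊓ V := Subgroup.mem_inf.2 ⟨hz1, hz'⟩
    rwa [U_inf_V, Subgroup.mem_bot] at h2
  exact conj_eq_one_iff.1 (key _ h (w0_conj_U (Subgroup.mem_inf.1 hy).1))

theorem congr_of {G T : Type*} [Group G] [Group T] {p : ℕ} (f : G ≃* T) (h : MeetIn p T) : MeetIn p G :=
  MeetIn.congr f.symm h

/-- **The Tits group.** -/
theorem meetIn_Tits {G : Type*} [Group G] (h : Cfsg.Lie.IsoTits G) : MeetIn 2 G := by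
  obtain ⟨e⟩ := h
  obtain ⟨e'⟩ := exists_equiv
  obtain ⟨f⟩ : Nonempty (G ≃* ↥TT) := ⟨e.trans e'⟩
  have h2 := congr_of (p := 2) (T := ↥TT) f
  exact h2 meetIn_TT

end tits

end Cfsg.Agent.H232.MeetTwoTw
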